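import Mathlib
import Cfsg.Agent.Spor.CZ.NQ
import Cfsg.Agent.Spor.MX.SuzGen
import Cfsg.Agent.Spor.MX.J2Gen
import Cfsg.Agent.GT.PConstrained

/-!
Centralisers of elements of odd prime order in `Co1`.
-/

set_option autoImplicit false

namespace Cfsg.Agent.Spor.CZ

open Subgroup Function Cfsg.Spor Cfsg.Agent.Spor.Leech Cfsg.Agent.Spor.MX

theorem conj_odd {x g : Co0} (hp : Odd (orderOf x)) (h : co1Pi (g * x * g⁻¹) = co1Pi x) : g * x * g⁻¹ = x :=
  (co1_eq.1 h).resolve_right fun e => by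
    have := congrArg (· ^ orderOf x) e
    simp only [conj_pow, (show Commute negOne x from (negOne_comm x).symm).mul_pow, pow_orderOf_eq_one, mul_one,
      mul_inv_cancel] at this
    obtain ⟨r, hr⟩ := hp
    rw [hr, pow_succ, pow_mul, sq, negOne_mul_self, one_pow, one_mul] at this
    exact negOne_ne_one this.symm

theorem comm_odd {x g : Co0} (hp : Odd (orderOf x)) (h : co1Pi g * co1Pi x = co1Pi x * co1Pi g) : g * x = x * g :=
  mul_inv_eq_iff_eq_mul.1 (conj_odd hp (by rw [map_mul, map_mul, h, map_inv, mul_inv_cancel_right]))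

theorem orderOf_co1 {x : Co0} {p : ℕ} (hp : p.Prime) (hp' : Odd p) (hx : orderOf x = p) : orderOf (co1Pi x) = p := by
  have := Fact.mk hp
  refine orderOf_eq_prime (by rw [← map_pow, ← hx, pow_orderOf_eq_one, map_one]) fun h => ?_
  rcases co1_eq_one.1 h with rfl | rfl
  · exact hp.one_lt.ne (orderOf_one.symm.trans hx)
  · rw [orderOf_eq_two_iff'.2 ⟨negOne_ne_one, negOne_mul_self⟩] at hx
    exact absurd (hx ▸ hp') (by decide)

theorem card_cent_odd {x : Co0} (hp : Odd (orderOf x)) :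
    Nat.card (centralizer ({x} : Set Co0)) = Nat.card (centralizer ({co1Pi x} : Set Co1)) * 2 :=
  co1Pi_ker ▸ card_cent_quot co1Pi co1_surj fun _ => conj_odd hp

theorem co1_mem_cent {x g : Co0} (h : g ∈ centralizer {x}) : co1Pi g ∈ centralizer {co1Pi x} :=
  mem_centralizer_singleton.2 (by rw [← map_mul, mem_centralizer_singleton.1 h, map_mul])

theorem sect1 {x : Co0} {p : ℕ} (hx : orderOf x = p) (hp : p.Prime) (hp' : Odd p) {J : Type} [Group J]
    [IsSimpleGroup J] {rJ vJ : LT} {m M y : ℕ} (hJ : PresT J rJ m) {R : ℕ → ℕ} (h1 : Ok R M)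
    (h2 : ∀ l < m, L R l ∈ centralizer {x}) (h3 : L R m = x) (h4 : L R (m + 1) = negOne)
    (h5 : relB R M m rJ vJ = true) (h6 : band (blt 2 m) (wNe R M [0, 2, y, 2, 0] [2, 0, y, 0, 2]) = true)
    (h7 : Nat.card (centralizer ({x} : Set Co0)) ≤ 2 * p * Nat.card J) :
    ∃ _ : ((zpowers (co1Pi x)).subgroupOf (centralizer {co1Pi x})).Normal,
      Nonempty (centralizer ({co1Pi x} : Set Co1) ⧸ (zpowers (co1Pi x)).subgroupOf (centralizer {co1Pi x}) ≃* J) ∧
      centralizer {co1Pi x} = zpowers (co1Pi x) ⊔ genLt (fun l => co1Pi (L R l)) m := by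
  rw [band_iff, blt_iff] at h6
  have a1 : zpowers (co1Pi x) ≤ centralizer (centralizer ({co1Pi x} : Set Co1) : Set Co1) :=
    zpowers_le_of_mem fun _ hg => (mem_centralizer_singleton.1 hg).symm
  obtain ⟨hn, e, -, h8⟩ := hJ.sect_equiv (C := centralizer {co1Pi x}) (Q := zpowers (co1Pi x))
    (zpowers_le_of_mem (mem_centralizer_singleton.2 rfl)) (g := fun l => co1Pi (L R l))
    (fun l hl => co1_mem_cent (h2 l hl))
    (fun l hl => centralizer_le_normalizer _ fun y hy => (a1 hy _ (co1_mem_cent (h2 l hl))).symm)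
    (fun i => by
      obtain ⟨v, hv⟩ := all2_get h5 i
      rw [band_iff] at hv
      rw [h1.fr.eq _ _ hv.2]
      refine evalW_mem_of_inR (fun l a b => ?_) hv.1
      rcases (by simp only [Nat.add_eq] at b; omega : l = m ∨ l = m + 1) with rfl | rfl
      · rw [h3]; exact mem_zpowers _
      · rw [h4, co1_neg]; exact one_mem _)
    (x := 0) (by omega) (fun h => h1.fr.ne [0, 2] [2, 0] y h6.2
      (by simpa using (a1 h _ (co1_mem_cent (h2 2 h6.1))).symm))
    (by
      rw [card_cent_odd (hx ▸ hp'), mul_assoc, mul_comm] at h7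
      rw [Nat.card_zpowers, orderOf_co1 hp hp' hx]
      omega)
  exact ⟨hn, e, h8⟩

theorem exists_cenEquiv {G H : Type*} [Group G] [Group H] (φ : G ≃* H) {X : Subgroup G} {y : H}
    (h : X.map (φ : G →* H) = zpowers y) :
    ∃ ψ : centralizer (X : Set G) ≃* centralizer ({y} : Set H), ∀ c, (ψ c : H) = φ c :=
  ⟨(φ.subgroupMap _).trans (MulEquiv.subgroupCongr (by rw [GT.map_centralizer_equiv, h, cent_zpowers])), fun _ => rfl⟩

theorem ker_le_center {G : Type*} [Group G] (x : G) [((zpowers x).subgroupOf (centralizer {x})).Normal] :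
    (QuotientGroup.mk' ((zpowers x).subgroupOf (centralizer {x}))).ker ≤ center _ := fun a ha => by
  rw [QuotientGroup.ker_mk', mem_subgroupOf] at ha
  exact mem_center_iff.2 fun c => Subtype.ext (zpowers_le_of_mem (H := centralizer {(c : G)})
    (mem_centralizer_singleton.2 (mem_centralizer_singleton.1 c.2).symm) ha _ rfl)

theorem qs_of_card {G : Type*} [Group G] [IsSimpleGroup G] (h : ¬ (Nat.card G).Prime) : IsQuasisimple G :=
  .of_isSimpleGroup fun ⟨⟨c⟩⟩ => h (@IsSimpleGroup.prime_card G { ‹Group G› with mul_comm := c } ‹_›)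

theorem suz_model : IsQuasisimple (centralizer ({co1Pi om} : Set Co1)) ∧
    ∃ _ : ((zpowers (co1Pi om)).subgroupOf (centralizer {co1Pi om})).Normal,
      Nonempty (centralizer ({co1Pi om} : Set Co1) ⧸ (zpowers (co1Pi om)).subgroupOf (centralizer {co1Pi om}) ≃* Suz) := by
  obtain ⟨hn, ⟨e⟩, -⟩ := sect1 (y := 0) orderOf_om (by norm_num) (by decide)
    (PresT.of_gen suz_gen (suz_bnd (wp_rels _)) (by decide +kernel)) j3_ok j3_cen j3_z j3_n j3_rel (by decide +kernel)
    (by rw [MSuz.card]; exact card_C3)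
  refine ⟨?_, hn, ⟨e⟩⟩
  have hs : ∀ l < 6, co1Pi (L j3_R.get l) ∈ centralizer {co1Pi om} := fun l hl => co1_mem_cent (j3_cen l hl)
  have hq := (qs_of_card (G := Suz) (by rw [MSuz.card]; norm_num)).of_mulEquiv e.symm
  have h1 := (hq.commutator_of_ker_le_center (QuotientGroup.mk'_surjective _) (ker_le_center _)).1
  rw [QuotientGroup.ker_mk'] at h1
  set f := Abelianization.of (G := centralizer ({co1Pi om} : Set Co1))
  have h2 : ∀ c, f c ^ 3 = 1 := fun c => by
    have : c ∈ ((powMonoidHom 3).comp f).ker := (h1.ge.trans (sup_le (fun a ha => by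
      have : f a = 1 := (Abelianization.ker_of _).ge ha
      simp [this])
      fun a ha => by
        have : a ^ 3 = 1 := Subtype.ext (by
          have := orderOf_dvd_of_mem_zpowers (mem_subgroupOf.1 ha)
          rw [orderOf_co1 (by norm_num) (by decide) orderOf_om] at this
          exact orderOf_dvd_iff_pow_eq_one.1 this)
        simp [← map_pow, this])) (mem_top c)
    simpa using this
  have h3 : ∀ l < 6, subLet hs l ∈ f.ker := fun l hl => by
    have a1 : subLet hs l ^ 28 = 1 := Subtype.ext (by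
      have := j3_ok.fr.eq _ _ ((allLt_iff 6 fun l => wEq j3_R.get 8 (powW 28 [l]) []).1
        (by decide +kernel) l hl)
      rw [evalW_powW, evalW_cons, evalW_nil, mul_one] at this
      rw [coe_pow, coe_subLet hs hl, this]; rfl)
    have a2 := congrArg f a1
    rw [map_pow, show 28 = 3 * 9 + 1 from rfl, pow_succ, pow_mul, h2, one_pow, one_mul, map_one] at a2
    exact a2
  have h4 := evalW_mem (g := subLet hs) (K := f.ker) (w := [0,0,0,2,1,2,1,1,2,3,1,4,0,4,2,5,1,5,2,5,0,2,5,1,5])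
    fun l hl => h3 l (by simp at hl; omega)
  have h5 := coe_evalW_subLet hs (w := [0,0,0,2,1,2,1,1,2,3,1,4,0,4,2,5,1,5,2,5,0,2,5,1,5]) (by decide +kernel)
  rw [j3_ok.fr.eq _ [6, 7] (by decide +kernel), evalW_cons _ 6, evalW_cons _ 7, evalW_nil, j3_z, j3_n, co1_neg, mul_one,
    mul_one] at h5
  have : Group.IsPerfect (centralizer ({co1Pi om} : Set Co1)) := ⟨by
    rw [← h1, left_eq_sup, ← map_subtype_le_map_subtype, subgroupOf_map_subtype, ← Abelianization.ker_of]
    exact inf_le_left.trans (zpowers_le_of_mem ⟨_, h4, h5⟩)⟩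
  exact hq.of_ker_le_center (QuotientGroup.mk'_surjective _) (ker_le_center _)

theorem red_p {G : Type*} [Group G] [Finite G] {z : G} (hz : orderOf z = 2) {Q : Subgroup (centralizer ({z} : Set G))}
    [Q.Normal] (hF : generalizedFittingSubgroup (centralizer ({z} : Set G)) = Q) (hQ : IsExtraspecial 2 Q)
    (hcard : Nat.card Q = 2 ^ 9) (e : centralizer ({z} : Set G) ⧸ Q ≃* Omega (ZMod 2) (quadFormPlus 4 (ZMod 2)))
    (h : IsoCo1 G) {X : Subgroup (centralizer ({z} : Set G))} {p n : ℕ} (hp : p.Prime) (hX : Nat.card X = p)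
    (hn : n ≤ Nat.card (Q ⊓ centralizer (X : Set (centralizer ({z} : Set G))) : Subgroup _)) {y : Co1}
    (hy : ∀ {x : Co1}, x * tb = tb * x → x ^ p = 1 → x ≠ 1 → n ≤ Nat.card (Q0 ⊓ centralizer {x} : Subgroup Co1) →
      ∃ k, k * x * k⁻¹ = y) :
    ∃ φ : G ≃* Co1, (X.map (centralizer ({z} : Set G)).subtype).map (φ : G →* Co1) = zpowers y := by
  obtain ⟨φ, h1, h2⟩ := red hz hF hQ hcard e h
  have := Fact.mk hp
  obtain ⟨x, rfl⟩ := X.isCyclic_iff_exists_zpowers_eq_top.1 (isCyclic_of_prime_card hX)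
  rw [Nat.card_zpowers] at hX
  obtain ⟨k, hk⟩ := hy (x := φ x) (by rw [← h1, ← map_mul, ← map_mul, mem_centralizer_singleton.1 x.2])
    (by rw [← map_pow, ← coe_pow, ← hX, pow_orderOf_eq_one, coe_one, map_one])
    (fun h => hp.one_lt.ne' (by rw [← hX, orderOf_eq_one_iff]; exact Subtype.ext (φ.map_eq_one_iff.1 h)))
    (hn.trans (by
      rw [← card_map_of_injective (centralizer ({z} : Set G)).subtype_injective,
        ← card_map_of_injective (f := (φ : G →* Co1)) φ.injective]
      refine card_le_of_le (le_inf (h2 ▸ map_mono (map_mono inf_le_left)) ?_)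
      rintro _ ⟨_, ⟨a, ha, rfl⟩, rfl⟩
      exact mem_centralizer_singleton.2 (by
        simpa using congrArg (fun c : centralizer ({z} : Set G) => φ c) (ha.2 x (mem_zpowers x)))))
  refine ⟨φ.trans (MulAut.conj k), ?_⟩
  rw [MonoidHom.map_zpowers, MonoidHom.map_zpowers, ← hk]
  rfl

end Cfsg.Agent.Spor.CZ
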