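import Mathlib
import Cfsg.Agent.Spor.CZ.Sect
import Cfsg.Agent.GT.PiGroups

/-!
Elements of `Co0` fixing a spanning set of vectors, alternating subgroups of `Co1`, direct products.
-/

set_option autoImplicit false

namespace Cfsg.Agent.Spor.CZ

open Subgroup Function MulAction Cfsg.Spor Cfsg.Agent.Spor.Leech Cfsg.Agent.Spor.MX
open Cfsg.Agent.Spor.LC hiding appW cd_evalW
open Cfsg.Agent.Spor.Golay (ptIdx ptIdx_lt ptIdx_injective)

/-- The vectors with codes `c k` span a sublattice of finite index. -/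
def Spans (c A : ℕ → ℕ) (o D : ℕ) : Prop :=
  D ≠ 0 ∧ ∀ j < 24, ∀ i < 24, ∑ k ∈ Finset.range 24, ((A (24 * j + k) : ℤ) - o) * ((LC.dg (c k) i : ℤ) - 8) =
    if i = j then 8 * (D : ℤ) else 0

instance (c A : ℕ → ℕ) (o D : ℕ) : Decidable (Spans c A o D) := by unfold Spans; infer_instance

theorem Spans.eq_one {c A : ℕ → ℕ} {o D : ℕ} (h : Spans c A o D) (hc : ∀ k < 24, okN 32 (c k) = true) {g : Co0}
    (hg : ∀ k < 24, g • vec (c k) = vec (c k)) : g = 1 := co0_ext_e8 fun p =>
  eq_of_zsmul_eq (n := D) (by exact_mod_cast h.1) (by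
    have : (D : ℤ) • e8 p = ∑ k ∈ Finset.range 24, ((A (24 * ptIdx p + k) : ℤ) - o) • vec (c k) :=
      Subtype.ext (funext fun q => by
        rw [AddSubgroup.val_finsetSum, Finset.sum_apply, Finset.sum_congr rfl fun k hk =>
          show (((((A (24 * ptIdx p + k) : ℤ) - o) • vec (c k) : Λ) : Vec) q) =
              ((A (24 * ptIdx p + k) : ℤ) - o) * ((LC.dg (c k) (ptIdx q) : ℤ) - 8) by
            obtain ⟨a, b⟩ := okN_spec (hc k (Finset.mem_range.1 hk))
            rw [AddSubgroup.coe_zsmul, Pi.smul_apply, smul_eq_mul, ← dec_cd (bd_of_nm (a.le.trans (by norm_num))), b, dec],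
          h.2 _ (ptIdx_lt p) _ (ptIdx_lt q), AddSubgroup.coe_zsmul, Pi.smul_apply, e8_apply]
        simp [ptIdx_injective.eq_iff, mul_comm])
    rw [one_smul, ← co0_smul_zsmul, this, Finset.smul_sum]
    exact Finset.sum_congr rfl fun k hk => by rw [co0_smul_zsmul, hg k (Finset.mem_range.1 hk)])

variable {R : ℕ → ℕ} {M : ℕ}

theorem Ok.fix_word (h : Ok R M) {a b : ℕ} {g : Co0} (hg : ∀ l, a ≤ l → l < b → L R l ∈ centralizer {g})
    {w : List ℕ} {c d : ℕ} (h1 : band (band (okN 32 c) (okN 32 d)) (band (inR a b w) (wMap R M w c d)) = true)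
    (h2 : g • vec c = vec c) : g • vec d = vec d := by
  simp only [band_iff] at h1
  obtain ⟨⟨hc, hd⟩, hw, h1⟩ := h1
  have h3 := h.map h1 ((okN_spec hc).1.le.trans (by norm_num)) ((okN_spec hd).1.le.trans (by norm_num))
    (okN_spec hc).2 (okN_spec hd).2
  rw [← h3, smul_smul, mem_centralizer_singleton.1 (evalW_mem_of_inR hg hw), mul_smul, h2]

/-- An element commuting with the letters in `[a, b)` and fixing the vectors `v k` is trivial. -/
theorem Ok.free (h : Ok R M) {a b : ℕ} {v c A : ℕ → ℕ} {ws : ℕ → List ℕ} {o D : ℕ} (h1 : Spans c A o D)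
    (h2 : (allLt 24 fun k => band (band (okN 32 (v k)) (okN 32 (c k)))
      (band (inR a b (ws k)) (wMap R M (ws k) (v k) (c k)))) = true) {g : Co0}
    (hg : ∀ l, a ≤ l → l < b → L R l ∈ centralizer {g}) (hv : ∀ k < 24, g • vec (v k) = vec (v k)) : g = 1 :=
  h1.eq_one (fun k hk => ((band_iff _ _).1 ((band_iff _ _).1 ((allLt_iff _ _).1 h2 k hk)).1).2)
    fun k hk => h.fix_word hg ((allLt_iff _ _).1 h2 k hk) (hv k hk)

theorem Ok.ipc_inv (h : Ok R M) {w : List ℕ} (hw : lettersLt M w = true) {g : Co0}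
    (hg : evalW (L R) w ∈ centralizer {g}) {y : Λ} (hy : nm y ≤ 64) :
    ipc (LC.cd ((g • y : Λ) : Vec)) (appW R w (LC.cd ((g • y : Λ) : Vec))) =
      ipc (LC.cd (y : Vec)) (appW R w (LC.cd (y : Vec))) := by
  have h1 : ∀ y : Λ, nm y ≤ 64 → (ipc (LC.cd (y : Vec)) (appW R w (LC.cd (y : Vec))) : ℤ) =
      32768 + ip y (evalW (L R) w • y) := fun y hy => by
    rw [← h.cd hw hy, ipc_cd (bd_of_nm hy) (bd_of_nm (by rwa [nm_smul]))]
  have h2 := h1 (g • y) (by rwa [nm_smul])
  rw [smul_smul, ← mem_centralizer_singleton.1 hg, mul_smul, ip_smul, ← h1 y hy] at h2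
  exact_mod_cast h2

theorem card_comap1 (K : Subgroup Co1) : Nat.card (K.comap co1Pi) = Nat.card K * 2 :=
  (GT.card_comap_mk' _ K).trans (congrArg _ ((congrArg (fun H : Subgroup Co0 => Nat.card H) co1_ker).symm.trans co1Pi_ker))

/-- The relators of the Carmichael presentation. -/
noncomputable def carR (n : ℕ) : LT :=
  Nat.rec (.leaf []) (fun i t => .node t (Nat.rec (.leaf [i, i, i])
    (fun j s => .node s (.node (.leaf [i, j, i, j]) (.leaf [j, i, j, i]))) i)) n

theorem Ok.alt (h : Ok R M) {n : ℕ} (hn : 3 ≤ n)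
    (h0 : band (band ((carR n).all (lettersLt n)) (carB (carR n) n))
      (band ((carR n).all (pmB R M)) (band (wEq R M [0, 0, 0] []) (wNe R M [0] []))) = true) :
    ∃ φ : alternatingGroup (Fin (n + 2)) →* Co1, Injective φ ∧ φ.range = genLt (fun l => co1Pi (L R l)) n := by
  simp only [band_iff] at h0
  obtain ⟨⟨h1, h2⟩, h3, h4, h5⟩ := h0
  have : IsSimpleGroup (alternatingGroup (Fin (n + 2))) := alternatingGroup.isSimpleGroup (by simp; omega)
  refine (presT_alt h1 h2).exists_inj (co1_rel h h3) (x := 0) (by omega) fun h6 => ?_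
  have := orderOf_co1 (by norm_num) (by decide) (h.orderOf (p := 3) (by norm_num) h4 h5)
  rw [h6, orderOf_one] at this
  omega

theorem prod_equiv {G A B : Type*} [Group G] [Group A] [Group B] {α : A →* G} {β : B →* G} (hα : Injective α)
    (hβ : Injective β) (h1 : α.range ≤ centralizer β.range) (h2 : center B = ⊥) {C : Subgroup G} [Finite C]
    (h3 : α.range ≤ C) (h4 : β.range ≤ C) (h5 : Nat.card C ≤ Nat.card A * Nat.card B) : Nonempty (C ≃* A × B) := by
  have hc : ∀ a b, Commute (α a) (β b) := fun a b => (h1 ⟨a, rfl⟩ _ ⟨b, rfl⟩).symm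
  let f := (α.noncommCoprod β hc).codRestrict C fun x => C.mul_mem (h3 ⟨_, rfl⟩) (h4 ⟨_, rfl⟩)
  have hf : Injective f := (injective_iff_map_eq_one f).2 fun x hx => by
    have h6 : α x.1 * β x.2 = 1 := congrArg Subtype.val hx
    have h7 : x.2 = 1 := h2.le (mem_center_iff.2 fun b => hβ (by
      rw [map_mul, map_mul, eq_inv_of_mul_eq_one_right h6]
      exact (hc _ b).inv_left.symm))
    rw [h7, map_one, mul_one] at h6
    exact Prod.ext (hα (h6.trans (map_one α).symm)) h7
  have := Finite.of_injective f hf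
  exact ⟨(MulEquiv.ofBijective f ((Nat.bijective_iff_injective_and_card f).2
    ⟨hf, le_antisymm (Nat.card_le_card_of_injective f hf) (Nat.card_prod A B ▸ h5)⟩)).symm⟩

end Cfsg.Agent.Spor.CZ
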