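import Mathlib
import Cfsg.Agent.C1T.Base
import Cfsg.Agent.Spor.CZ.Frame
import Cfsg.Agent.Perm.PrimeIndex

/-!
Elements of odd prime order in the centraliser of an involution with a large extraspecial subgroup of order `2 ^ 9`,
through the codes of the automorphisms they induce.
-/

set_option autoImplicit false

namespace Cfsg.Agent.Spor.CZ

open Subgroup Cfsg.Agent.C1T

variable {G : Type*} [Group G] {z : G} {g : ℕ → G}

theorem rp_eq (h : StQ z g) (hl : Lg (QG g) z) {x y : G} {a : ℕ} (hx : Rp z g x a) (hy : Rp z g y a) :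
    y = x ∨ y = x * z := by
  have h1 : QG g ≤ centralizer {x⁻¹ * y} := genLt_le fun k hk => mem_centralizer_singleton.2 (by
    have := (hx.2.2 k hk).trans (hy.2.2 k hk).symm
    calc _ = x⁻¹ * (y * g k * y⁻¹) * y := by group
      _ = _ := by rw [← this]; group)
  have h2 : ∀ q ∈ QG g, x⁻¹ * y * q = q * (x⁻¹ * y) := fun q hq => mem_centralizer_singleton.1 (h1 hq)
  exact (h.es2.center _ (hl.centralizer_le fun q hq => (h2 q hq).symm) h2).imp (fun e => (inv_mul_eq_one.1 e).symm)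
    inv_mul_eq_iff_eq_mul.1

/-- The list `L` is the set of codes of the group generated by the codes `c`. -/
noncomputable def sylB (c : ℕ → ℕ) (m : ℕ) (W L : List ℕ) : Bool :=
  band (band (decide L.Nodup) (LC.memL L aid))
    (band (band (allL W fun n => lettersLt m (dw n)) (decide (W.map (fun n => aev c (dw n)) = L)))
      (allL L fun a => allLt m fun j => force (amul (c j) a) (LC.memL L)))

theorem exists_conj_code [Finite G] (h : StQ z g) {c : ℕ → ℕ} {m : ℕ} (hc : ∀ i < m, ∃ x, Rp z g x (c i))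
    {W L : List ℕ} (h1 : sylB c m W L = true) {p : ℕ} (hp : p.Prime)
    (h2 : ¬ p * L.length ∣ Nat.card (centralizer ({z} : Set G))) {x : G} (hx : x * z = z * x) (hxp : x ^ p = 1) :
    ∃ k, k * z = z * k ∧ ∃ a ∈ L, Rp z g (k * x * k⁻¹) a := by
  have := Fact.mk hp
  simp only [sylB, band_iff, decide_eq_true_eq, LC.memL_iff, allL_iff, allLt_iff, force_eq] at h1
  obtain ⟨⟨a1, a2⟩, ⟨a3, a4⟩, a5⟩ := h1
  choose! l hl using hc
  have b1 : ∀ j < m, ∀ n y, (∃ a ∈ L, Rp z g y a) → ∃ a ∈ L, Rp z g (l j ^ n * y) a := fun j hj n y hy => by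
    induction n with
    | zero => simpa using hy
    | succ n ih =>
      obtain ⟨a, ha, e⟩ := ih
      exact ⟨_, a5 a ha j hj, by rw [pow_succ', mul_assoc]; exact h.rp_mul (hl j hj) e⟩
  have b2 : ∀ y ∈ genLt l m, ∃ a ∈ L, Rp z g y a := fun y hy => by
    induction hy using closure_induction_left with
    | one => exact ⟨_, a2, h.rp_one⟩
    | mul_left x hx y _ ih =>
      obtain ⟨j, hj, rfl⟩ := hx
      simpa using b1 j hj 1 y ih
    | inv_mul_cancel x hx y _ ih =>
      obtain ⟨j, hj, rfl⟩ := hx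
      rw [inv_eq_of_mul_eq_one_right (mul_pow_sub_one (orderOf_pos (l j)).ne' (l j) ▸ pow_orderOf_eq_one (l j))]
      exact b1 j hj _ y ih
  have b3 : ∀ a ∈ L, ∃ y ∈ genLt l m, Rp z g y a := fun a ha => by
    obtain ⟨n, hn, rfl⟩ := List.mem_map.1 (a4 ▸ ha)
    exact ⟨_, evalW_mem fun x hx => mem_genLt l ((lettersLt_iff _ _).1 (a3 n hn) x hx), h.rp_word hl (a3 n hn)⟩
  have b4 : {y | ∃ k ∈ (genLt l m).map (MulAut.conj (G := G)), k • (fun i : Fin 8 => g i) = y} =
      (fun a (i : Fin 8) => qv z g (img a i)) '' L.toFinset := by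
    ext y
    simp only [Set.mem_ofPred_eq, Set.mem_image, Finset.mem_coe, List.mem_toFinset]
    constructor
    · rintro ⟨_, ⟨k, hk, rfl⟩, rfl⟩
      obtain ⟨a, ha, e⟩ := b2 k hk
      exact ⟨a, ha, funext fun i => (e.2.2 i i.2).symm⟩
    · rintro ⟨a, ha, rfl⟩
      obtain ⟨k, hk, e⟩ := b3 a ha
      exact ⟨_, ⟨k, hk, rfl⟩, funext fun i => e.2.2 i i.2⟩
  have b5 := (relIndex_dvd_card (MulAction.stabilizer (MulAut G) fun i : Fin 8 => g i) _).trans
    (card_map_dvd (genLt l m) MulAut.conj)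
  rw [Leech.relIndex_stabilizer, b4, Set.InjOn.ncard_image fun a ha b hb e => by
    obtain ⟨_, -, e1⟩ := b3 a (List.mem_toFinset.1 ha)
    obtain ⟨_, -, e2⟩ := b3 b (List.mem_toFinset.1 hb)
    exact eq_of_img e1.2.1 e2.2.1 fun k hk => h.qv_inj (img_lt _ _) (img_lt _ _) (congrFun e ⟨k, hk⟩),
    Set.ncard_coe_finset, List.toFinset_card_of_nodup a1] at b5
  have b6 : genLt l m ≤ centralizer {z} := genLt_le fun j hj => mem_centralizer_singleton.2 (hl j hj).1.symm
  obtain ⟨k, hk⟩ := Perm.exists_conj_mem_of_prime_not_dvd_index ((genLt l m).subgroupOf (centralizer {z})) (q := p)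
    (fun e => h2 (by
      rw [← ((genLt l m).subgroupOf _).index_mul_card, Nat.card_congr (subgroupOfEquivOfLe b6).toEquiv]
      exact Nat.mul_dvd_mul e b5)) (x := ⟨x, mem_centralizer_singleton.2 hx.symm⟩) (Subtype.ext hxp)
  exact ⟨k, (mem_centralizer_singleton.1 k.2).symm, b2 _ hk⟩

theorem card_fix_le [Finite G] (h : StQ z g) (hl : Lg (QG g) z) {x k : G} {a : ℕ} (hk : k * z = z * k)
    (hx : Rp z g (k * x * k⁻¹) a) :
    Nat.card (QG g ⊓ centralizer {x} : Subgroup G) ≤ count2 512 fun b => Nat.beq (app a b) b := by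
  rw [← ncard_image_label (e := qv z g) fun a ha b hb => h.qv_inj ha hb,
    ← card_map_of_injective (f := (MulAut.conj k).toMonoidHom) (MulEquiv.injective _)]
  refine Set.ncard_le_ncard (s := SetLike.coe (map _ _ : Subgroup G)) ?_ (Set.toFinite _)
  rintro _ ⟨q, ⟨h1, h2⟩, rfl⟩
  obtain ⟨b, hb, e⟩ := h.mem_QG.1 (hl.norm k hk.symm q h1)
  refine ⟨b, ⟨hb, (nbeq_iff _ _).2 (h.qv_inj (app_lt _ _) hb ?_)⟩, e⟩
  rw [← h.rp_app hx hb, e, conj_mul, mem_centralizer_singleton.1 h2]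
  group

/-- Every code in the list is trivial, has few fixed points, or is conjugate to `c₀`. -/
noncomputable def clsB (Ks : List ℕ) (c₀ n a : ℕ) : Bool :=
  bor (bor (Nat.beq a aid) (blt (count2 512 fun b => Nat.beq (app a b) b) n))
    (MB.anyL (fun k => Nat.beq (amul k a) (amul c₀ k)) Ks)

theorem conj_of_codes [Finite G] (h : StQ z g) (hl : Lg (QG g) z) {c : ℕ → ℕ} {m : ℕ}
    (hc : ∀ i < m, ∃ x, Rp z g x (c i)) {W L : List ℕ} (h1 : sylB c m W L = true) {p : ℕ} (hp : p.Prime) (hp' : Odd p)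
    (h2 : ¬ p * L.length ∣ Nat.card (centralizer ({z} : Set G))) {x₀ : G} {c₀ : ℕ} (h3 : Rp z g x₀ c₀)
    (h4 : x₀ ^ p = 1) {Ks : List ℕ} (h5 : ∀ k ∈ Ks, ∃ x, Rp z g x k) {n : ℕ} (h6 : ∀ a ∈ L, clsB Ks c₀ n a = true)
    {x : G} (hx : x * z = z * x) (hxp : x ^ p = 1) (hx1 : x ≠ 1)
    (hn : n ≤ Nat.card (QG g ⊓ centralizer {x} : Subgroup G)) : ∃ k, k * x * k⁻¹ = x₀ := by
  obtain ⟨k, hk, a, ha, e⟩ := exists_conj_code h hc h1 hp h2 hx hxp
  have key : ∀ {u v : G}, u * z = z * u → u ^ p = 1 → v * x * v⁻¹ ≠ u * z := fun {u v} e1 e2 e3 => by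
    have := congrArg (· ^ p) e3
    obtain ⟨r, rfl⟩ := hp'
    simp only [conj_pow, hxp, mul_one, mul_inv_cancel, (show Commute u z from e1).mul_pow, e2, one_mul] at this
    rw [pow_succ, pow_mul, sq, h.z_sq, one_pow, one_mul] at this
    exact h.z_ne this.symm
  have h7 := h6 a ha
  simp only [clsB, bor_iff, nbeq_iff, blt_iff, MB.anyL_iff] at h7
  rcases h7 with (rfl | h7) | ⟨b, hb, h7⟩
  · exact absurd (by simpa using (rp_eq h hl h.rp_one e).resolve_right (key (by simp) (one_pow p))) hx1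
  · exact absurd (hn.trans (card_fix_le h hl hk e)) h7.not_ge
  · obtain ⟨w, hw⟩ := h5 b hb
    rcases rp_eq h hl (h.rp_mul h3 hw) (h7 ▸ h.rp_mul hw e) with e1 | e1
    · exact ⟨w * k, by rw [← mul_inv_eq_iff_eq_mul] at e1; rw [← e1]; group⟩
    · rw [mul_assoc x₀, hw.1, ← mul_assoc x₀, ← mul_inv_eq_iff_eq_mul] at e1
      exact absurd (by rw [← e1]; group) (key (v := w * k) h3.1 h4)

/-! ### Letters -/

/-- The word in the letters `0, …, 8` for an element of `Q`. -/
noncomputable def qw (x : ℕ) : List ℕ :=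
  appL (Bool.rec [] [8] (x.testBit 8)) (Nat.rec [] (fun i ih => appL ih (Bool.rec [] [i] (x.testBit i))) 8)

theorem evalW_qw (s : ℕ → G) (x : ℕ) : evalW s (qw x) = qv (s 8) s x := by
  have : ∀ n : ℕ, evalW s (Nat.rec [] (fun i ih => appL ih (Bool.rec [] [i] (x.testBit i))) n) = gp s x n := fun n => by
    induction n with
    | zero => rfl
    | succ n ih =>
      rw [gp_succ, ← ih]
      change evalW s (appL _ _) = _
      rw [appL_eq, evalW_append]
      cases x.testBit n <;> simp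
  rw [qw, appL_eq, evalW_append, this, qv]
  cases x.testBit 8 <;> simp

/-- The letters `0, …, 7` satisfy the relations of `Q`, with centre the letter `8`. -/
noncomputable def stqB (R : ℕ → ℕ) (M : ℕ) : Bool :=
  band (wEq R M [8, 8] [])
    (band (allLt 8 fun k => band (band (wEq R M [8, k] [k, 8]) (wEq R M [k, k] []))
      (allLt k fun j => bor (Nat.beq k (Nat.add j 4)) (wEq R M [k, j] [j, k])))
      (allLt 4 fun j => wEq R M [Nat.add j 4, j] [8, j, Nat.add j 4]))

/-- The letter `l` acts with code `c`. -/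
noncomputable def rpB (R : ℕ → ℕ) (M l c : ℕ) : Bool :=
  band (band (wEq R M [l, 8] [8, l]) (blt c 0x1000000000000000000))
    (allLt 8 fun k => wEq R M [l, k] (appL (qw (img c k)) [l]))

variable {S : Type} [Group S] {R : ℕ → ℕ} {M : ℕ} {s : ℕ → S}

theorem Fr.stq (h : Fr R M s) (h0 : s 8 ≠ 1) (h1 : stqB R M = true) : StQ (s 8) s := by
  simp only [stqB, band_iff, allLt_iff, bor_iff, nbeq_iff, Nat.add_eq] at h1
  obtain ⟨a2, a3, a4⟩ := h1
  exact ⟨h0, by simpa using h.eq _ _ a2, fun k hk => by simpa using h.eq _ _ (a3 k hk).1.1,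
    fun k hk => by simpa using h.eq _ _ (a3 k hk).1.2,
    fun i hi j hj e => by simpa using h.eq _ _ (((a3 i hi).2 j hj).resolve_left e),
    fun j hj => by simpa using h.eq _ _ (a4 j hj)⟩

theorem Fr.rp (h : Fr R M s) {l c : ℕ} (h1 : rpB R M l c = true) : Rp (s 8) s (s l) c := by
  simp only [rpB, band_iff, allLt_iff, blt_iff] at h1
  refine ⟨by simpa using h.eq _ _ h1.1.1, h1.1.2, fun k hk => ?_⟩
  have := h.eq _ _ (h1.2 k hk)
  rw [appL_eq, evalW_append, evalW_qw] at this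
  simpa [mul_inv_eq_iff_eq_mul] using this

/-- The codes in `Ks` are the codes of the words in `ws`. -/
theorem exists_rp_of_words {z : G} {g l : ℕ → G} (h : StQ z g) {c : ℕ → ℕ} {m : ℕ} (hl : ∀ i < m, Rp z g (l i) (c i))
    {ws : List (List ℕ)} {Ks : List ℕ}
    (h1 : band (allL ws (lettersLt m)) (decide (ws.map (aev c) = Ks)) = true) : ∀ k ∈ Ks, ∃ x, Rp z g x k := by
  simp only [band_iff, allL_iff, decide_eq_true_eq] at h1
  intro k hk
  obtain ⟨w, hw, rfl⟩ := List.mem_map.1 (h1.2 ▸ hk)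
  exact ⟨_, h.rp_word hl (h1.1 w hw)⟩

end Cfsg.Agent.Spor.CZ
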